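import Cfsg.Agent.H6.Ly.H.Tab0

set_option autoImplicit false
set_option maxRecDepth 100000
set_option Elab.async false

namespace Cfsg.H6.Ly.H

theorem p8 : allR (ptU img) 3072 384 = true := by decide +kernel

theorem p9 : allR (ptU img) 3456 384 = true := by decide +kernel

theorem p10 : allR (ptU img) 3840 384 = true := by decide +kernel

theorem p11 : allR (ptU img) 4224 384 = true := by decide +kernel

end Cfsg.H6.Ly.H
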